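import Mathlib
import Cfsg.Agent.H121.HexBase

/-!
# The centralizer of a regular unipotent element in a group with hexagonal relations

`u = x₆(1) x₁(1)`; if every element of the centralizer of `u` is a product
`x₆ x₁ x₅ x₂ x₃ x₄`, then `|C(u)| ≤ q³ |E|`, `q` the order of the fixed field of `σ`.
-/

set_option autoImplicit false

namespace Cfsg.Agent.H120.DP.Hex

open Cfsg.Agent.H121.HexMin
open Cfsg.Agent.SplitTwo (HexRel trc shp crs nrm kk)

variable {E : Type*} [Field E] {σ : E ≃+* E} {G : Type*} [Group G] {x1 x2 x3 x4 x5 x6 : E → G}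

section Rel

variable (D : HexRel σ x1 x2 x3 x4 x5 x6)

include D

theorem x1_zero : x1 0 = 1 := by
  have := D.add1 0 0
  rw [add_zero] at this
  exact left_eq_mul.1 this

theorem x5_zero : x5 0 = 1 := by
  have := D.add5 0 0
  rw [add_zero] at this
  exact left_eq_mul.1 this

theorem x6_zero : x6 0 = 1 := by
  have := D.add6 0 0 (map_zero σ) (map_zero σ)
  rw [add_zero] at this
  exact left_eq_mul.1 this

theorem x5_neg (c : E) : (x5 c)⁻¹ = x5 (-c) := by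
  rw [inv_eq_iff_mul_eq_one, ← D.add5, add_neg_cancel, x5_zero D]

theorem x1_neg (c : E) : (x1 c)⁻¹ = x1 (-c) := by
  rw [inv_eq_iff_mul_eq_one, ← D.add1, add_neg_cancel, x1_zero D]

theorem xx_zero : xx (σ := σ) x2 x3 x4 0 = 1 := by
  have := xx_add D 0 0
  rw [add_zero] at this
  exact left_eq_mul.1 this

theorem xx_neg (p : fx σ × E × fx σ) : (xx x2 x3 x4 p)⁻¹ = xx x2 x3 x4 (-p) := by
  rw [inv_eq_iff_mul_eq_one, ← xx_add D, add_neg_cancel, xx_zero D]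

theorem e15 (a c : E) : x1 a * x5 c = x5 c * x1 a *
    xx x2 x3 x4 (-tr σ D.cube (shp σ a) c, crs σ a c, tr σ D.cube a (shp σ c)) := by
  have h := kk_eq (D.c15 a c)
  rw [h]
  simp only [xx, tr, Subfield.coe_neg, mul_assoc]

theorem e16 (a : E) (t : fx σ) : x1 a * x6 t = x6 t * x1 a *
    (xx x2 x3 x4 (-(t * nm σ D.cube a), (t : E) * shp σ a, t ^ 2 * nm σ D.cube a) * x5 (-((t : E) * a))) := by
  have h := kk_eq (D.c16 a t t.2)
  rw [h]
  simp only [xx, nm, Subfield.coe_neg, Subfield.coe_mul, pow_two, mul_assoc]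

theorem e56 (c : E) (t : fx σ) : x5 c * x6 t = x6 t * x5 c := by
  have h := kk_eq (D.c56 c t t.2)
  rwa [mul_one] at h

/-- the subgroup `X₂ X₃ X₄` -/
def M : Subgroup G where
  carrier := {g | ∃ p : fx σ × E × fx σ, g = xx x2 x3 x4 p}
  one_mem' := ⟨0, (xx_zero D).symm⟩
  mul_mem' := by
    rintro _ _ ⟨p, rfl⟩ ⟨r, rfl⟩
    exact ⟨p + r, (xx_add D p r).symm⟩
  inv_mem' := by
    rintro _ ⟨p, rfl⟩
    exact ⟨-p, xx_neg D p⟩

theorem mem_M {g : G} : g ∈ M D ↔ ∃ p : fx σ × E × fx σ, g = xx x2 x3 x4 p := Iff.rfl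

theorem xx_mem (p : fx σ × E × fx σ) : xx x2 x3 x4 p ∈ M D := ⟨p, rfl⟩

theorem norm_of {y y' : G} (h : y' * y = 1) (_h' : y * y' = 1) (hy : ∀ p : fx σ × E × fx σ, ∃ p' : fx σ × E × fx σ, y * xx x2 x3 x4 p =
    xx x2 x3 x4 p' * y) (hy' : ∀ p : fx σ × E × fx σ, ∃ p' : fx σ × E × fx σ, y' * xx x2 x3 x4 p = xx x2 x3 x4 p' * y') :
    y ∈ Subgroup.normalizer (M D : Set G) := by
  rw [Subgroup.mem_normalizer_iff]
  intro g
  have e : y' = y⁻¹ := eq_inv_of_mul_eq_one_left h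
  constructor
  · rintro ⟨p, rfl⟩
    obtain ⟨p', hp'⟩ := hy p
    exact ⟨p', by rw [hp']; group⟩
  · rintro ⟨p, hp⟩
    obtain ⟨p', hp'⟩ := hy' p
    refine ⟨p', ?_⟩
    have e2 : g = y⁻¹ * xx x2 x3 x4 p * y := by rw [← hp]; group
    rw [e2, ← e, hp', mul_assoc, h, mul_one]

theorem n1 (c : E) : x1 c ∈ Subgroup.normalizer (M D : Set G) := by
  refine norm_of D (y' := x1 (-c)) ?_ ?_ (fun p => ⟨_, g1 D D.cube c p⟩) (fun p => ⟨_, g1 D D.cube _ p⟩)
  · rw [← D.add1, neg_add_cancel, x1_zero D]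
  · rw [← D.add1, add_neg_cancel, x1_zero D]

theorem n5 (c : E) : x5 c ∈ Subgroup.normalizer (M D : Set G) := by
  refine norm_of D (y' := x5 (-c)) ?_ ?_ (fun p => ⟨_, g5 D D.cube c p⟩) (fun p => ⟨_, g5 D D.cube _ p⟩)
  · rw [← D.add5, neg_add_cancel, x5_zero D]
  · rw [← D.add5, add_neg_cancel, x5_zero D]

theorem add6' (t s : fx σ) : x6 ((t + s : fx σ) : E) = x6 t * x6 s := by
  rw [Subfield.coe_add, D.add6 _ _ t.2 s.2]

theorem n6 (c : fx σ) : x6 c ∈ Subgroup.normalizer (M D : Set G) := by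
  refine norm_of D (y' := x6 ((-c : fx σ) : E)) ?_ ?_ (fun p => ⟨_, g6 D c p⟩) (fun p => ⟨_, g6 D _ p⟩)
  · rw [← add6' D, neg_add_cancel, Subfield.coe_zero, x6_zero D]
  · rw [← add6' D, add_neg_cancel, Subfield.coe_zero, x6_zero D]

theorem nM {g : G} (hg : g ∈ M D) : g ∈ Subgroup.normalizer (M D : Set G) := Subgroup.le_normalizer hg

/-- **first coordinate**: `b = a`. -/
theorem step1 (h5 : ∀ (c : E) (p : fx σ × E × fx σ), x5 c = xx x2 x3 x4 p → c = 0) {a : fx σ} {b c : E}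
    {p : fx σ × E × fx σ} {g : G} (hg : g = x6 a * x1 b * (x5 c * xx x2 x3 x4 p))
    (hgu : g * (x6 1 * x1 1) = x6 1 * x1 1 * g) : b = a := by
  set N := Subgroup.normalizer (M D : Set G) with hN
  let M' : Subgroup N := (M D).subgroupOf N
  have hM' : M'.Normal := Subgroup.normal_in_normalizer
  let π : N →* N ⧸ M' := QuotientGroup.mk' M'
  have hπ : ∀ (g : G) (hg : g ∈ N), g ∈ M D → π ⟨g, hg⟩ = 1 := by
    intro g hg hgM
    rw [QuotientGroup.mk'_apply, QuotientGroup.eq_one_iff]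
    exact Subgroup.mem_subgroupOf.2 hgM
  have hπ' : ∀ (g : G) (hg : g ∈ N), π ⟨g, hg⟩ = 1 → g ∈ M D := by
    intro g hg h
    rw [QuotientGroup.mk'_apply, QuotientGroup.eq_one_iff] at h
    exact Subgroup.mem_subgroupOf.1 h
  let y1 : E → N ⧸ M' := fun c => π ⟨x1 c, n1 D c⟩
  let y5 : E → N ⧸ M' := fun c => π ⟨x5 c, n5 D c⟩
  let y6 : fx σ → N ⧸ M' := fun c => π ⟨x6 c, n6 D c⟩
  have a1 : ∀ s t, y1 (s + t) = y1 s * y1 t := fun s t => by
    rw [← map_mul]; exact congrArg π (Subtype.ext (D.add1 s t))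
  have a5 : ∀ s t, y5 (s + t) = y5 s * y5 t := fun s t => by
    rw [← map_mul]; exact congrArg π (Subtype.ext (D.add5 s t))
  have a6 : ∀ s t, y6 (s + t) = y6 s * y6 t := fun s t => by
    rw [← map_mul]; exact congrArg π (Subtype.ext (add6' D s t))
  have c56 : ∀ c t, y5 c * y6 t = y6 t * y5 c := fun c t => by
    rw [← map_mul, ← map_mul]; exact congrArg π (Subtype.ext (e56 D c t))
  have c15 : ∀ s c, y1 s * y5 c = y5 c * y1 s := fun s c => by
    have h := e15 D s c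
    set r : fx σ × E × fx σ := (-tr σ D.cube (shp σ s) c, crs σ s c, tr σ D.cube s (shp σ c)) with hr
    have h1 : (⟨x1 s, n1 D s⟩ : N) * ⟨x5 c, n5 D c⟩ = ⟨x5 c, n5 D c⟩ * ⟨x1 s, n1 D s⟩ *
        ⟨xx x2 x3 x4 r, nM D (xx_mem D r)⟩ := Subtype.ext h
    have h2 := congrArg π h1
    rw [map_mul, map_mul, map_mul, hπ _ _ (xx_mem D r), mul_one] at h2
    exact h2
  have c16 : ∀ (s : E) (t : fx σ), y1 s * y6 t = y6 t * y1 s * y5 (-((t : E) * s)) := fun s t => by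
    have h := e16 D s t
    set r : fx σ × E × fx σ := (-(t * nm σ D.cube s), (t : E) * shp σ s, t ^ 2 * nm σ D.cube s) with hr
    have h1 : (⟨x1 s, n1 D s⟩ : N) * ⟨x6 t, n6 D t⟩ = ⟨x6 t, n6 D t⟩ * ⟨x1 s, n1 D s⟩ *
        (⟨xx x2 x3 x4 r, nM D (xx_mem D r)⟩ * ⟨x5 (-((t : E) * s)), n5 D _⟩) := Subtype.ext h
    have h2 := congrArg π h1
    rw [map_mul, map_mul, map_mul, map_mul, hπ _ _ (xx_mem D r), one_mul] at h2
    exact h2
  have hx61 : x6 1 = x6 ((1 : fx σ) : E) := by rw [Subfield.coe_one]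
  have hgN : g = ((⟨x6 a, n6 D a⟩ * ⟨x1 b, n1 D b⟩ * (⟨x5 c, n5 D c⟩ * ⟨xx x2 x3 x4 p, nM D (xx_mem D p)⟩) : N) : G) := hg
  have huN : x6 1 * x1 1 = ((⟨x6 ((1 : fx σ) : E), n6 D 1⟩ * ⟨x1 1, n1 D 1⟩ : N) : G) := by
    rw [hx61]; rfl
  rw [hgN, huN, ← Subgroup.coe_mul, ← Subgroup.coe_mul] at hgu
  have h1 := congrArg π (Subtype.ext hgu)
  simp only [map_mul] at h1
  rw [hπ _ _ (xx_mem D p), mul_one] at h1
  have h2 : y6 a * y1 b * y5 c * (y6 1 * y1 1) = y6 1 * y1 1 * (y6 a * y1 b * y5 c) := h1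
  have e1 : y6 a * y1 b * y5 c * (y6 1 * y1 1) = y6 (a + 1) * y1 (b + 1) * y5 (-b + c) := by
    calc y6 a * y1 b * y5 c * (y6 1 * y1 1) = y6 a * y1 b * (y5 c * y6 1) * y1 1 := by group
      _ = y6 a * (y1 b * y6 1) * y5 c * y1 1 := by rw [c56]; group
      _ = y6 a * y6 1 * y1 b * y5 (-b) * (y5 c * y1 1) := by
          rw [c16, Subfield.coe_one, one_mul]; group
      _ = y6 a * y6 1 * y1 b * (y5 (-b) * y1 1) * y5 c := by rw [← c15]; group
      _ = y6 a * y6 1 * (y1 b * y1 1) * (y5 (-b) * y5 c) := by rw [← c15]; group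
      _ = _ := by rw [← a6, ← a1, ← a5]
  have e2 : y6 1 * y1 1 * (y6 a * y1 b * y5 c) = y6 (1 + a) * y1 (1 + b) * y5 (-(a : E) + c) := by
    calc y6 1 * y1 1 * (y6 a * y1 b * y5 c) = y6 1 * (y1 1 * y6 a) * y1 b * y5 c := by group
      _ = y6 1 * y6 a * y1 1 * (y5 (-(a : E)) * y1 b) * y5 c := by
          rw [c16, mul_one]; group
      _ = y6 1 * y6 a * (y1 1 * y1 b) * (y5 (-(a : E)) * y5 c) := by rw [← c15]; group
      _ = _ := by rw [← a6, ← a1, ← a5]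
  rw [e1, e2, add_comm 1 a, add_comm 1 b] at h2
  have h3 : y5 (-b + c) = y5 (-(a : E) + c) := mul_left_cancel h2
  have h4 : y5 (-b + a) = 1 := by
    have : y5 (-b + c) = y5 (-b + a) * y5 (-(a : E) + c) := by rw [← a5]; congr 1; ring
    rw [this] at h3
    exact mul_eq_right.1 h3
  obtain ⟨r, hr⟩ := hπ' _ _ h4
  have := h5 _ _ hr
  linear_combination -this

/-- **elements of `X₅ X₂ X₃ X₄`** -/
theorem step3 (hxx : Function.Injective (xx (σ := σ) x2 x3 x4)) {c : E} {p : fx σ × E × fx σ} {g : G}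
    (hg : g = x5 c * xx x2 x3 x4 p) (hgu : g * (x6 1 * x1 1) = x6 1 * x1 1 * g) :
    crs σ 1 c = 0 ∧ p.1 = tr σ D.cube 1 (shp σ c) := by
  have hx61 : x6 1 = x6 ((1 : fx σ) : E) := by rw [Subfield.coe_one]
  rw [hx61] at hgu
  have hinv : x6 ((-1 : fx σ) : E) * x6 ((1 : fx σ) : E) = 1 := by
    rw [← add6' D, neg_add_cancel, Subfield.coe_zero, x6_zero D]
  -- `x1 1 * g = x6 (-1) * g * x6 1 * x1 1`
  have h1 : x1 1 * g = x6 ((-1 : fx σ) : E) * (g * (x6 ((1 : fx σ) : E) * x1 1)) := by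
    rw [hgu, mul_assoc, ← mul_assoc (x6 ((-1 : fx σ) : E)), hinv, one_mul]
  set r : fx σ × E × fx σ := (-tr σ D.cube (shp σ 1) c, crs σ 1 c, tr σ D.cube 1 (shp σ c)) with hr
  have h2 : x1 1 * g = x5 c * xx x2 x3 x4 ((r + p).1 + tr σ D.cube 1 (r + p).2.1, (r + p).2.1, (r + p).2.2) * x1 1 := by
    rw [hg, ← mul_assoc, e15 D, mul_assoc, ← xx_add D, mul_assoc, g1 D D.cube, mul_assoc]
  have h3 : x6 ((-1 : fx σ) : E) * (g * (x6 ((1 : fx σ) : E) * x1 1)) =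
      x5 c * xx x2 x3 x4 (p.1, p.2.1, p.2.2 - p.1 * (-1)) * x1 1 := by
    rw [hg]
    calc x6 ((-1 : fx σ) : E) * (x5 c * xx x2 x3 x4 p * (x6 ((1 : fx σ) : E) * x1 1)) =
        (x6 ((-1 : fx σ) : E) * x5 c) * xx x2 x3 x4 p * x6 ((1 : fx σ) : E) * x1 1 := by group
      _ = x5 c * (x6 ((-1 : fx σ) : E) * xx x2 x3 x4 p) * x6 ((1 : fx σ) : E) * x1 1 := by rw [← e56 D]; group
      _ = x5 c * xx x2 x3 x4 (p.1, p.2.1, p.2.2 - p.1 * (-1)) * (x6 ((-1 : fx σ) : E) * x6 ((1 : fx σ) : E)) * x1 1 := by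
          rw [g6 D]; group
      _ = _ := by rw [hinv]; group
  rw [h2, h3] at h1
  have h4 := hxx (mul_left_cancel (mul_right_cancel h1))
  have h5 : (r + p).2.1 = p.2.1 := congrArg (fun z => z.2.1) h4
  have h6 : (r + p).2.2 = p.2.2 - p.1 * (-1) := congrArg (fun z => z.2.2) h4
  refine ⟨add_eq_right.1 h5, ?_⟩
  have h7 : (r + p).2.2 = tr σ D.cube 1 (shp σ c) + p.2.2 := rfl
  rw [h7] at h6
  linear_combination -h6

omit D in
theorem crs_zero (h3 : ∀ a, σ (σ (σ a)) = a) {c : E} (h : crs σ 1 c = 0) : σ c = c := by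
  simp only [crs, map_one, one_mul] at h
  have h1 := congrArg σ h
  rw [map_add, map_zero, h3] at h1
  linear_combination h - h1

/-- **the order of the centralizer** -/
theorem card_le [Finite E] (h5 : ∀ (c : E) (p : fx σ × E × fx σ), x5 c = xx x2 x3 x4 p → c = 0)
    (hxx : Function.Injective (xx (σ := σ) x2 x3 x4))
    (hC : ∀ g : G, g * (x6 1 * x1 1) = x6 1 * x1 1 * g →
      ∃ (a : fx σ) (b c : E) (p : fx σ × E × fx σ), g = x6 a * x1 b * (x5 c * xx x2 x3 x4 p)) :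
    Nat.card (Subgroup.centralizer ({x6 1 * x1 1} : Set G)) ≤ Nat.card (fx σ) ^ 3 * Nat.card E := by
  classical
  set u : G := x6 1 * x1 1 with hu
  set C := Subgroup.centralizer ({u} : Set G) with hCdef
  have hmem : ∀ g : G, g ∈ C ↔ g * u = u * g := fun g => by rw [hCdef, Subgroup.mem_centralizer_singleton_iff]
  have key : ∀ g : C, ∃ (a : fx σ) (c : E) (p : fx σ × E × fx σ), (g : G) = x6 a * x1 a * (x5 c * xx x2 x3 x4 p) := by
    intro g
    have h1 := (hmem g).1 g.2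
    obtain ⟨a, b, c, p, h2⟩ := hC g h1
    exact ⟨a, c, p, by rw [h2, step1 D h5 h2 h1]⟩
  choose fa fc fp hf using key
  -- base elements
  have hbase : ∀ a : fx σ, ∃ g0 : C, (∃ g : C, fa g = a) → fa g0 = a := by
    intro a
    by_cases h : ∃ g : C, fa g = a
    · obtain ⟨g, hg⟩ := h
      exact ⟨g, fun _ => hg⟩
    · exact ⟨1, fun h' => absurd h' h⟩
  choose g0 hg0 using hbase
  have hg0' : ∀ g : C, fa (g0 (fa g)) = fa g := fun g => hg0 _ ⟨g, rfl⟩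
  -- the quotients
  have hquot : ∀ g : C, ∃ (c : E) (p : fx σ × E × fx σ), (((g0 (fa g))⁻¹ * g : C) : G) = x5 c * xx x2 x3 x4 p := by
    intro g
    have e1 := hf g
    have e2 := hf (g0 (fa g))
    rw [hg0' g] at e2
    refine ⟨fc g - fc (g0 (fa g)), ?_⟩
    have e3 : (((g0 (fa g))⁻¹ * g : C) : G) = (xx x2 x3 x4 (fp (g0 (fa g))))⁻¹ * (x5 (fc (g0 (fa g))))⁻¹ * x5 (fc g) *
        xx x2 x3 x4 (fp g) := by
      rw [Subgroup.coe_mul, Subgroup.coe_inv, e1]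
      rw [e2]
      group
    rw [e3, x5_neg D, mul_assoc (xx x2 x3 x4 (fp (g0 (fa g))))⁻¹, ← D.add5, neg_add_eq_sub, xx_neg D]
    have hn := n5 D (fc g - fc (g0 (fa g)))
    rw [Subgroup.mem_normalizer_iff''] at hn
    obtain ⟨r, hr⟩ := (hn (xx x2 x3 x4 (-fp (g0 (fa g))))).1 (xx_mem D _)
    refine ⟨r + fp g, ?_⟩
    rw [xx_add D, ← hr]
    group
  choose qc qp hq using hquot
  have hcond : ∀ g : C, crs σ 1 (qc g) = 0 ∧ (qp g).1 = tr σ D.cube 1 (shp σ (qc g)) := fun g =>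
    step3 D hxx (hq g) ((hmem _).1 ((g0 (fa g))⁻¹ * g : C).2)
  let Φ : C → fx σ × fx σ × E × fx σ := fun g =>
    (fa g, ⟨qc g, crs_zero D.cube (hcond g).1⟩, (qp g).2.1, (qp g).2.2)
  have hΦ : Function.Injective Φ := by
    intro g g' h
    have h1 : fa g = fa g' := congrArg (fun z => z.1) h
    have h2 : qc g = qc g' := congrArg (fun z => ((z.2.1 : fx σ) : E)) h
    have h3 : (qp g).2.1 = (qp g').2.1 := congrArg (fun z => z.2.2.1) h
    have h4 : (qp g).2.2 = (qp g').2.2 := congrArg (fun z => z.2.2.2) h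
    have h5 : qp g = qp g' := by
      refine Prod.ext ?_ (Prod.ext h3 h4)
      rw [(hcond g).2, (hcond g').2, h2]
    have h6 : ((g0 (fa g))⁻¹ * g : C) = (g0 (fa g'))⁻¹ * g' := Subtype.ext (by rw [hq g, hq g', h2, h5])
    rw [h1] at h6
    exact mul_left_cancel h6
  calc Nat.card C ≤ Nat.card (fx σ × fx σ × E × fx σ) := Nat.card_le_card_of_injective Φ hΦ
    _ = Nat.card (fx σ) ^ 3 * Nat.card E := by
      simp only [Nat.card_prod]
      ring

end Rel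

end Cfsg.Agent.H120.DP.Hex
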