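import Cfsg.Agent.H120.DP.Hex
import Cfsg.Agent.H120.Cyc.TwD4
import Cfsg.Agent.H610.ChevRegular
import Cfsg.Agent.H129.CycCard
import Cfsg.Agent.H514.DP.Core
import Cfsg.Agent.H514.DP.TTwo

/-!
# S2454: the groups `³D₄(q)`

* `card_cent` : the centralizer of the regular unipotent element `u = x₆(1) x₁(1)` has order at most `q⁶`;
* `pe_u` : `u` is a product of nine `p`-elements if `p ∣ q (q⁶ - 1)`;
* `pw` : every element of `³D₄(q)` is a product of `54` `p`-elements.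
-/

set_option autoImplicit false
set_option linter.unusedSectionVars false

namespace Cfsg.Agent.H120.DP.TwD4

open Cfsg.Lie
open Cfsg.Agent.ChevalleyStructure
open Cfsg.Agent.ChevalleyStructure.Elts (InList)
open Cfsg.Agent.ChevalleyStructure.D4Comm
open Cfsg.Agent.ChevalleyStructure.D4NCheck
open Cfsg.Agent.ChevalleyStructure.D4NConj
open Cfsg.Agent.ChevalleyStructure.D4U
open Cfsg.Agent.ChevalleyStructure.TwistedU
open Cfsg.Agent.ChevalleyStructure.D4Twisted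
open Cfsg.Agent.Hexagon.TwD4Rel Cfsg.Agent.Hexagon.TwD4Par
open Cfsg.Agent.SplitTwo (HexRel trc shp crs nrm kk)
open Cfsg.Agent.H121.HexMin (fx xx)
open Cfsg.Agent.H868.KTwD4 (hD4)
open Cfsg.Agent.H514.DP (PE PW IsPE)
open scoped commutatorElement

section Form

variable {K : Type*} [Field K] {φ : K →+* K} {σ : K ≃+* K}

theorem wcomm {r s : ℕ} (h : okPair r s = true) (t u : K) :
    (xG r t : GL chevD4.Idx K) * xG s u = xG s u * xG r t := (commute_of_ok h t u).eq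

/-- the elements of `U` in the form `x₆ x₁ x₅ x₂ x₃ x₄` -/
theorem elt_form (hσφ : ∀ x, σ x = φ x) (h3 : ∀ a, φ (φ (φ a)) = a) (a b c d e f : K) :
    X6 a * X1 σ b * (X5 σ c * (X2 e * (X3 σ d * X4 f))) = elt φ a b c (φ (φ d)) e (-f) := by
  rw [elt_eq, X6, X1, X5, X2, X3, X4, w1_eq, w1_eq, w1_eq, w3_eq, w3_eq, w3_eq, h3, hσφ, hσφ, hσφ, hσφ, hσφ, hσφ]
  have e1 : ∀ y : K, (xG 22 e : GL chevD4.Idx K) * xG 17 y = xG 17 y * xG 22 e := fun y => wcomm (by decide +kernel) _ _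
  have e2 : ∀ y : K, (xG 22 e : GL chevD4.Idx K) * xG 20 y = xG 20 y * xG 22 e := fun y => wcomm (by decide +kernel) _ _
  have e3 : ∀ y : K, (xG 22 e : GL chevD4.Idx K) * xG 21 y = xG 21 y * xG 22 e := fun y => wcomm (by decide +kernel) _ _
  have e4 : ∀ x y : K, (xG 21 x : GL chevD4.Idx K) * xG 17 y = xG 17 y * xG 21 x := fun x y => wcomm (by decide +kernel) _ _
  have e5 : ∀ x y : K, (xG 21 x : GL chevD4.Idx K) * xG 20 y = xG 20 y * xG 21 x := fun x y => wcomm (by decide +kernel) _ _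
  have key : (xG 22 e : GL chevD4.Idx K) * (xG 17 (-d) * (xG 20 (φ d) * xG 21 (φ (φ d))) * xG 23 (-f)) =
      xG 21 (φ (φ d)) * xG 17 (-d) * xG 20 (φ d) * xG 22 e * xG 23 (-f) := by
    calc (xG 22 e : GL chevD4.Idx K) * (xG 17 (-d) * (xG 20 (φ d) * xG 21 (φ (φ d))) * xG 23 (-f)) =
        xG 22 e * xG 17 (-d) * xG 20 (φ d) * xG 21 (φ (φ d)) * xG 23 (-f) := by group
      _ = xG 17 (-d) * (xG 22 e * xG 20 (φ d)) * xG 21 (φ (φ d)) * xG 23 (-f) := by rw [e1]; group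
      _ = xG 17 (-d) * xG 20 (φ d) * (xG 22 e * xG 21 (φ (φ d))) * xG 23 (-f) := by rw [e2]; group
      _ = xG 17 (-d) * (xG 20 (φ d) * xG 21 (φ (φ d))) * xG 22 e * xG 23 (-f) := by rw [e3]; group
      _ = (xG 17 (-d) * xG 21 (φ (φ d))) * xG 20 (φ d) * xG 22 e * xG 23 (-f) := by rw [← e5]; group
      _ = _ := by rw [← e4]
  rw [key]
  group

end Form

section Tw

variable {K : Type} [Field K] [Fintype K] {q : ℕ} {φ : K →+* K} {σ : K ≃+* K}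

/-- the regular unipotent element -/
noncomputable def uu (σ : K ≃+* K) (q : ℕ) : ↥(twistedD4 K q) := ev X6 1 * ev (X1 σ) 1

theorem coe_uu (hφ : ∀ x, φ x = x ^ q) (hσφ : ∀ x, σ x = φ x) :
    ((uu σ q : ↥(twistedD4 K q)) : GL chevD4.Idx K) = X6 1 * X1 σ 1 := by
  rw [uu, Subgroup.coe_mul, c6 hφ hσφ (map_one σ), c1 hφ hσφ]

theorem comp_one' {i r : ℕ} (hr : chevD4.IsPosRoot r) :
    Cfsg.Agent.H610.ChevRegular.Comp hD4 i (Elts.xG hD4 r (1 : K)) (if r = chevD4.simple i then 1 else 0) := by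
  by_cases h : r = chevD4.simple i
  · rw [if_pos h, h]
    exact Cfsg.Agent.H610.ChevRegular.comp_simple hD4 i 1
  · rw [if_neg h]
    exact Cfsg.Agent.H610.ChevRegular.comp_root hD4 hr h 1

theorem reg_uu (hφ : ∀ x, φ x = x ^ q) (hσφ : ∀ x, σ x = φ x) :
    Cfsg.Agent.H610.ChevRegular.Reg hD4 ((uu σ q : ↥(twistedD4 K q)) : GL chevD4.Idx K) := by
  have e : ((uu σ q : ↥(twistedD4 K q)) : GL chevD4.Idx K) = Elts.xG hD4 14 1 *
      (Elts.xG hD4 18 1 * (Elts.xG hD4 13 1 * Elts.xG hD4 12 1)) := by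
    rw [coe_uu hφ hσφ, X6, X1, w1_eq, w3_eq, map_one, map_one, Cfsg.Agent.H868.KTwD4.xG_eq,
      Cfsg.Agent.H868.KTwD4.xG_eq, Cfsg.Agent.H868.KTwD4.xG_eq, Cfsg.Agent.H868.KTwD4.xG_eq]
  have p14 : chevD4.IsPosRoot 14 := by decide +kernel
  have p18 : chevD4.IsPosRoot 18 := by decide +kernel
  have p13 : chevD4.IsPosRoot 13 := by decide +kernel
  have p12 : chevD4.IsPosRoot 12 := by decide +kernel
  have hmem : ∀ r, chevD4.IsPosRoot r → Elts.xG hD4 r (1 : K) ∈ chevD4.posUnipotent K := fun r hr =>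
    Subgroup.subset_closure ⟨r, 1, hr, rfl⟩
  rw [e]
  refine ⟨mul_mem (hmem _ p14) (mul_mem (hmem _ p18) (mul_mem (hmem _ p13) (hmem _ p12))), fun i hi => ?_⟩
  have hc := Cfsg.Agent.H610.ChevRegular.comp_mul hD4 hi (comp_one' (K := K) (i := i) p14)
    (Cfsg.Agent.H610.ChevRegular.comp_mul hD4 hi (comp_one' (K := K) (i := i) p18)
      (Cfsg.Agent.H610.ChevRegular.comp_mul hD4 hi (comp_one' (K := K) (i := i) p13)
        (comp_one' (K := K) (i := i) p12)))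
  refine ⟨_, ?_, hc⟩
  have hr4 : chevD4.rank = 4 := by decide
  rw [hr4] at hi
  have s0 : chevD4.simple 0 = 18 := by decide
  have s1 : chevD4.simple 1 = 14 := by decide
  have s2 : chevD4.simple 2 = 13 := by decide
  have s3 : chevD4.simple 3 = 12 := by decide
  interval_cases i
  · rw [s0]; norm_num
  · rw [s1]; norm_num
  · rw [s2]; norm_num
  · rw [s3]; norm_num

/-- the elements commuting with `u` -/
theorem exists_of_comm (hq : IsPrimePow q) (hK : Fintype.card K = q ^ 3) (hφ : ∀ x, φ x = x ^ q)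
    (hσφ : ∀ x, σ x = φ x) {g : ↥(twistedD4 K q)} (hg : g * uu σ q = uu σ q * g) :
    ∃ (a : fx σ) (b c : K) (p : fx σ × K × fx σ), g = ev X6 (a : K) * ev (X1 σ) b *
      (ev (X5 σ) c * xx (ev X2) (ev (X3 σ)) (ev X4) p) := by
  have hgG : (g : GL chevD4.Idx K) ∈ chevD4.group K := Cfsg.Agent.H129.TriD4.tw_le hq hK g.2
  have h1 := Cfsg.Agent.H610.ChevRegular.mem_posUnipotent_of_comm hD4 (reg_uu hφ hσφ) hgG (congrArg Subtype.val hg)
  obtain ⟨a, b, c, d, e, f, ha, he, hf, h2⟩ :=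
    (mem_U_inf_iff (phi3 hK hφ) hφ (D4Fixed.twisted_le_fix hK hφ) (g : GL chevD4.Idx K)).1 ⟨h1, g.2⟩
  have ha' : σ a = a := by rw [hσφ, ha]
  have he' : σ e = e := by rw [hσφ, he]
  have hf' : σ (-f) = -f := by rw [map_neg, hσφ, hf]
  refine ⟨⟨a, ha'⟩, b, c, (⟨e, he'⟩, φ d, ⟨-f, hf'⟩), Subtype.ext ?_⟩
  rw [h2, xx, Subgroup.coe_mul, Subgroup.coe_mul, Subgroup.coe_mul, Subgroup.coe_mul, Subgroup.coe_mul, c6 hφ hσφ ha',
    c1 hφ hσφ, c5 hφ hσφ, c2 hφ hσφ he', c3 hφ hσφ, c4 hφ hσφ hf', elt_form hσφ (phi3 hK hφ), neg_neg, phi3 hK hφ]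

/-- **the order of the centralizer of `u`** -/
theorem card_cent (hq : IsPrimePow q) (hK : Fintype.card K = q ^ 3) (hφ : ∀ x, φ x = x ^ q) (hσφ : ∀ x, σ x = φ x) :
    Nat.card (Subgroup.centralizer ({uu σ q} : Set ↥(twistedD4 K q))) ≤ q ^ 6 := by
  have h3 := phi3 hK hφ
  have h3σ : ∀ a, σ (σ (σ a)) = a := fun a => by rw [hσφ, hσφ, hσφ, h3]
  have hP := hexPar hφ (D4Fixed.twisted_le_fix hK hφ) hσφ h3σ
  -- coordinates
  have hcoe : ∀ p : fx σ × K × fx σ, ((xx (ev X2) (ev (X3 σ)) (ev X4) p : ↥(twistedD4 K q)) : GL chevD4.Idx K) =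
      elt φ 0 0 0 (φ (φ p.2.1)) p.1 (-p.2.2) := by
    rintro ⟨s, a, t⟩
    rw [xx, Subgroup.coe_mul, Subgroup.coe_mul, c2 hφ hσφ s.2, c3 hφ hσφ, c4 hφ hσφ t.2, ← elt_form hσφ h3]
    simp only [X6, X1, X5, w1_eq, w3_eq, map_zero, neg_zero, xG_zero, one_mul]
  have hcoe5 : ∀ c : K, ((ev (X5 σ) c : ↥(twistedD4 K q)) : GL chevD4.Idx K) = elt φ 0 0 c 0 0 0 := by
    intro c
    have h := elt_form hσφ h3 0 0 c 0 0 0
    rw [map_zero, map_zero, neg_zero] at h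
    rw [c5 hφ hσφ, ← h]
    simp only [X6, X1, X2, X3, X4, w1_eq, w3_eq, map_zero, neg_zero, xG_zero, one_mul, mul_one]
  have hC := Hex.card_le hP.rel (fun c p h => ?_) (fun p r h => ?_) (fun g hg => exists_of_comm hq hK hφ hσφ hg)
  · have e1 : Nat.card (fx σ) = q := Cfsg.Agent.H121.TwD4.card_fx hq.one_lt hK (fun x => by rw [hσφ, hφ])
    rw [e1, Nat.card_eq_fintype_card (α := K), hK, ← pow_add] at hC
    exact hC
  · have h1 := congrArg Subtype.val h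
    rw [hcoe5, hcoe] at h1
    exact (elt_inj h1).2.2.1
  · have h1 := congrArg Subtype.val h
    rw [hcoe, hcoe] at h1
    obtain ⟨-, -, -, h2, h4, h5⟩ := elt_inj h1
    refine Prod.ext (Subtype.ext h4) (Prod.ext (φ.injective (φ.injective h2)) (Subtype.ext (neg_injective h5)))

/-! ### products of `p`-elements -/

theorem not_scalar {a : K} (ha : a ≠ 0) (c : K) :
    (SL2Hom.up a).1 ≠ c • (1 : Matrix (Fin 2) (Fin 2) K) := by
  intro h
  have h1 := congrFun (congrFun h 0) 1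
  apply ha
  have h2 : (SL2Hom.up a).1 0 1 = a := rfl
  rw [← h2, h1]
  simp

theorem pe_one (hφ : ∀ x, φ x = x ^ q) (hσφ : ∀ x, σ x = φ x) {p : ℕ} (hp : p.Prime)
    (hd : CharP K p ∨ (p ∣ Nat.card K ^ 2 - 1 ∧ 4 ≤ Nat.card K)) (a : K) :
    PE p 3 (ev (X1 σ) a : ↥(twistedD4 K q)) := by
  have h1 : (ev (X1 σ) a : ↥(twistedD4 K q)) = CycExc.TriD4.B' φ hφ (SL2Hom.up a) := by
    apply Subtype.ext
    rw [CycExc.TriD4.coe_B', Cfsg.Agent.H868.KTwD4.coe_B_up, c1 hφ hσφ, X1_eq σ φ hσφ]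
  rw [h1]
  by_cases ha : a = 0
  · subst ha
    have : SL2Hom.up (0 : K) = 1 := by
      apply Subtype.ext
      ext i j
      fin_cases i <;> fin_cases j <;> simp [SL2Hom.up]
    rw [this, map_one]
    exact Cfsg.Agent.H514.DP.pe_one_elt 3
  · exact (Cfsg.Agent.H514.DP.pe_three_of_nonscalar hp hd _ (not_scalar ha)).map _

theorem pe_conj {p m : ℕ} {n x y : GL chevD4.Idx K} (hn : n ∈ twistedD4 K q) (hx : x ∈ twistedD4 K q)
    (hy : y ∈ twistedD4 K q) (h : n * x * n⁻¹ = y) (hpe : PE p m (⟨x, hx⟩ : ↥(twistedD4 K q))) :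
    PE p m (⟨y, hy⟩ : ↥(twistedD4 K q)) := by
  have e : (⟨y, hy⟩ : ↥(twistedD4 K q)) = ⟨n, hn⟩ * ⟨x, hx⟩ * ⟨n, hn⟩⁻¹ := Subtype.ext h.symm
  rw [e]
  exact hpe.conj _

theorem ev_eq {f : K → GL chevD4.Idx K} {a : K} (h : f a ∈ twistedD4 K q) :
    (ev f a : ↥(twistedD4 K q)) = ⟨f a, h⟩ := Subtype.ext (ev_coe h)

theorem pe_three (hφ : ∀ x, φ x = x ^ q) (hσφ : ∀ x, σ x = φ x) {p : ℕ} (hp : p.Prime)
    (hd : CharP K p ∨ (p ∣ Nat.card K ^ 2 - 1 ∧ 4 ≤ Nat.card K)) (a : K) :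
    PE p 3 (ev (X3 σ) a : ↥(twistedD4 K q)) := by
  have h1 := pe_one (σ := σ) hφ hσφ hp hd (-a)
  rw [ev_eq (X1_mem hφ hσφ _)] at h1
  have h2 := pe_conj (na_mem hφ) _ (X5_mem hφ hσφ _) (na_X1 σ (-a)) h1
  have h3 := pe_conj (nb_mem hφ) _ (X3_mem hφ hσφ _) (nb_X5 σ a) h2
  rw [ev_eq (X3_mem hφ hσφ _)]
  exact h3

theorem pe_six (hq : IsPrimePow q) (hK : Fintype.card K = q ^ 3) (hφ : ∀ x, φ x = x ^ q) (hσφ : ∀ x, σ x = φ x)
    {p : ℕ} (hp : p.Prime) (hd : CharP K p ∨ (p ∣ Nat.card K ^ 2 - 1 ∧ 4 ≤ Nat.card K)) :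
    PE p 6 (ev X6 1 : ↥(twistedD4 K q)) := by
  have h3 := phi3 hK hφ
  have h3σ : ∀ a, σ (σ (σ a)) = a := fun a => by rw [hσφ, hσφ, hσφ, h3]
  have hP := hexPar hφ (D4Fixed.twisted_le_fix hK hφ) hσφ h3σ
  obtain ⟨b, hb⟩ := Cfsg.Agent.H121.TwD4.trc_nondeg hq.one_lt hK (fun x => by rw [hσφ, hφ]) (1 : K) one_ne_zero
  set t := trc σ 1 b with ht
  have htσ : σ t = t := by
    rw [ht]
    simp only [trc, map_add, h3σ, one_mul]
    ring
  have hb2 : trc σ 1 (b / t) = 1 := by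
    have e : trc σ 1 (b / t) = trc σ 1 b / t := by
      simp only [trc, one_mul, map_div₀, htσ]
      ring
    rw [e, ← ht, div_self hb]
  have h1 := hP.rel.c35 1 (b / t)
  rw [hb2] at h1
  have h2 : PE p (3 + 3) (ev X4 1 : ↥(twistedD4 K q)) := by
    rw [← h1]
    have e : kk (ev (X3 σ) 1 : ↥(twistedD4 K q)) (ev (X5 σ) (b / t)) =
        (ev (X3 σ) 1)⁻¹ * ((ev (X5 σ) (b / t))⁻¹ * ev (X3 σ) 1 * ((ev (X5 σ) (b / t))⁻¹)⁻¹) := by
      rw [kk]; group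
    rw [e]
    exact (pe_three hφ hσφ hp hd 1).inv.mul ((pe_three hφ hσφ hp hd 1).conj _)
  have hm1 : σ (-1) = -1 := by rw [map_neg, map_one]
  -- `x₄(1)` is conjugate to `x₆(1)`
  have e2 : na K * X2 (-1) * (na K)⁻¹ = X4 (1 : K) := na_X2 1
  have e3 : nb K * X6 1 * (nb K)⁻¹ = X2 (-1 : K) := by
    have := nb_X6 (K := K) (-1)
    rwa [neg_neg] at this
  have e4 : (na K * nb K)⁻¹ * X4 1 * ((na K * nb K)⁻¹)⁻¹ = X6 (1 : K) := by
    rw [← e2, ← e3]; group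
  rw [ev_eq (X4_mem hφ hσφ (map_one σ))] at h2
  rw [ev_eq (X6_mem hφ hσφ (map_one σ))]
  exact pe_conj (inv_mem (mul_mem (na_mem hφ) (nb_mem hφ))) _ _ e4 h2

theorem pe_uu (hq : IsPrimePow q) (hK : Fintype.card K = q ^ 3) (hφ : ∀ x, φ x = x ^ q) (hσφ : ∀ x, σ x = φ x)
    {p : ℕ} (hp : p.Prime) (hd : CharP K p ∨ (p ∣ Nat.card K ^ 2 - 1 ∧ 4 ≤ Nat.card K)) :
    PE p 9 (uu σ q : ↥(twistedD4 K q)) := (pe_six hq hK hφ hσφ hp hd).mul (pe_one hφ hσφ hp hd 1)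

/-! ### the main theorem -/

theorem minDeg514 (hq : IsPrimePow q) (hK : Fintype.card K = q ^ 3) :
    Cfsg.Agent.H514.DP.MinDeg ↥(twistedD4 K q) ((q ^ 2 - 1) * q ^ 3 + (q - 1)) := by
  intro k ρ hρ hk
  have hfr : Module.finrank ℂ (Fin k → ℂ) = k := Module.finrank_fin_fun ℂ
  have := CycExc.TriD4.minDeg hq hK (Fin k → ℂ) ρ (Cfsg.Agent.H120.exists_ne_one ρ hρ (by rw [hfr]; exact hk))
  rwa [hfr] at this

theorem perf (hq : IsPrimePow q) (hK : Fintype.card K = q ^ 3) : commutator ↥(twistedD4 K q) = ⊤ := by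
  obtain ⟨hs, hnc⟩ := Cfsg.Agent.S1071.result hq hK
  have hn : (commutator ↥(twistedD4 K q)).Normal := inferInstance
  rcases hn.eq_bot_or_eq_top with h | h
  · exfalso
    apply hnc
    refine ⟨⟨fun a b => ?_⟩⟩
    have h1 : ⁅a, b⁆ ∈ commutator ↥(twistedD4 K q) := Subgroup.commutator_mem_commutator (Subgroup.mem_top a) (Subgroup.mem_top b)
    rw [h, Subgroup.mem_bot] at h1
    exact commutatorElement_eq_one_iff_mul_comm.1 h1
  · exact h

theorem arith1 {q : ℕ} (hq : 2 ≤ q) : (q ^ 6) ^ 6 < ((q ^ 2 - 1) * q ^ 3 + (q - 1)) ^ 8 := by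
  have h1 : 3 * q ^ 2 ≤ 4 * (q ^ 2 - 1) := by
    have : 4 ≤ q ^ 2 := by nlinarith
    omega
  have h2 : (3 * q ^ 2 * q ^ 3) ^ 8 ≤ (4 * (q ^ 2 - 1) * q ^ 3) ^ 8 :=
    Nat.pow_le_pow_left (Nat.mul_le_mul_right _ h1) 8
  have h3 : 4 ^ 8 * (q ^ 6) ^ 6 < (3 * q ^ 2 * q ^ 3) ^ 8 := by
    have e : (3 * q ^ 2 * q ^ 3) ^ 8 = (3 ^ 8 * q ^ 4) * (q ^ 6) ^ 6 := by ring
    rw [e]
    have h4 : 2 ^ 4 ≤ q ^ 4 := Nat.pow_le_pow_left hq 4
    have h5 : 4 ^ 8 < 3 ^ 8 * q ^ 4 := by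
      calc 4 ^ 8 < 3 ^ 8 * 2 ^ 4 := by norm_num
        _ ≤ _ := Nat.mul_le_mul_left _ h4
    exact Nat.mul_lt_mul_of_pos_right h5 (by positivity)
  have h6 : (4 * (q ^ 2 - 1) * q ^ 3) ^ 8 = 4 ^ 8 * ((q ^ 2 - 1) * q ^ 3) ^ 8 := by ring
  rw [h6] at h2
  have h7 : (q ^ 6) ^ 6 < ((q ^ 2 - 1) * q ^ 3) ^ 8 := Nat.lt_of_mul_lt_mul_left (h3.trans_le h2)
  exact h7.trans_le (Nat.pow_le_pow_left (Nat.le_add_right _ _) 8)

theorem arith2 {q : ℕ} (hq : 2 ≤ q) : q ^ 4 - q ^ 2 < (q ^ 2 - 1) * q ^ 3 := by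
  have h1 : q ^ 4 - q ^ 2 = (q ^ 2 - 1) * q ^ 2 := by
    rw [Nat.sub_mul, one_mul, ← pow_add]
  rw [h1]
  have h2 : q ^ 2 < q ^ 3 := Nat.pow_lt_pow_right (by omega) (by norm_num)
  have h3 : 0 < q ^ 2 - 1 := by
    have : 4 ≤ q ^ 2 := by nlinarith
    omega
  exact Nat.mul_lt_mul_of_pos_left h2 h3

/-- **S2454 for `³D₄(q)`** -/
theorem pw (hq : IsPrimePow q) (hK : Fintype.card K = q ^ 3) {p : ℕ} (hp : p.Prime)
    (hd : p ∣ Nat.card ↥(twistedD4 K q)) : PW p 54 ↥(twistedD4 K q) := by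
  obtain ⟨φ, hφ⟩ := D4Fixed.exists_frob hq hK
  let σ : K ≃+* K := RingEquiv.ofBijective φ (Finite.injective_iff_bijective.1 φ.injective)
  have hσφ : ∀ x, σ x = φ x := fun x => rfl
  have hq2 := hq.two_le
  have hK' : Nat.card K = q ^ 3 := by rw [Nat.card_eq_fintype_card, hK]
  have hq3 : 2 ^ 3 ≤ q ^ 3 := Nat.pow_le_pow_left hq2 3
  by_cases hA : CharP K p ∨ (p ∣ Nat.card K ^ 2 - 1 ∧ 4 ≤ Nat.card K)
  · refine PW.of_pe (perf hq hK) (pe_uu hq hK hφ hσφ hp hA) (minDeg514 hq hK) (k := 6) (by norm_num) ?_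
    refine lt_of_le_of_lt (Nat.pow_le_pow_left ?_ 6) (arith1 hq2)
    exact (Nat.sub_le _ _).trans (card_cent hq hK hφ hσφ)
  · push Not at hA
    rw [Cfsg.Agent.S1067.result hq hK] at hd
    have h4 : ¬ p ∣ q ^ 6 - 1 := by
      intro h
      refine absurd (hA.2 ?_) (by rw [hK']; omega)
      rwa [hK', ← pow_mul]
    have hpq : ¬ p ∣ q := by
      intro h
      apply hA.1
      obtain ⟨r, hr⟩ := CharP.exists K
      obtain ⟨k, hrp, hk⟩ := FiniteField.card K r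
      have h5 : p ∣ r ^ (k : ℕ) := by
        rw [← hk, hK]
        exact h.trans (dvd_pow_self q (by norm_num))
      have h6 := (Nat.prime_dvd_prime_iff_eq hp hrp).1 (hp.dvd_of_dvd_pow h5)
      rw [h6]; exact hr
    have h2 : ¬ p ∣ q ^ 2 - 1 := fun h => h4 (h.trans (by
      have := Nat.sub_dvd_pow_sub_pow (q ^ 2) 1 3
      rwa [one_pow, ← pow_mul] at this))
    have h8 : p ∣ q ^ 8 + q ^ 4 + 1 := by
      rcases (Nat.Prime.dvd_mul hp).1 hd with h | h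
      · rcases (Nat.Prime.dvd_mul hp).1 h with h | h
        · rcases (Nat.Prime.dvd_mul hp).1 h with h | h
          · exact absurd (hp.dvd_of_dvd_pow h) hpq
          · exact absurd h h2
        · exact absurd h h4
      · exact h
    have hdz : (p : ℤ) ∣ 1 - (q : ℤ) ^ 2 + (q : ℤ) ^ 4 := by
      have h9 : (p : ℤ) ∣ ((q : ℤ) ^ 4 + (q : ℤ) ^ 2 + 1) * (1 - (q : ℤ) ^ 2 + (q : ℤ) ^ 4) := by
        have := Int.natCast_dvd_natCast.2 h8
        have e : ((q : ℤ) ^ 4 + (q : ℤ) ^ 2 + 1) * (1 - (q : ℤ) ^ 2 + (q : ℤ) ^ 4) = ((q ^ 8 + q ^ 4 + 1 : ℕ) : ℤ) := by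
          push_cast; ring
        rw [e]; exact this
      rcases (Int.Prime.dvd_mul' hp h9) with h | h
      · exfalso
        have h10 : p ∣ q ^ 4 + q ^ 2 + 1 := by exact_mod_cast h
        apply h4
        have e : q ^ 6 - 1 = (q ^ 2 - 1) * (q ^ 4 + q ^ 2 + 1) := by
          have h4q : 4 ≤ q ^ 2 := by nlinarith
          obtain ⟨s, hs⟩ : ∃ s, q ^ 2 = s + 1 := ⟨q ^ 2 - 1, by omega⟩
          have e6 : q ^ 6 = (q ^ 2) ^ 3 := by ring
          have e4 : q ^ 4 = (q ^ 2) ^ 2 := by ring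
          rw [e6, e4, hs, Nat.add_sub_cancel]
          have : (s + 1) ^ 3 = s * ((s + 1) ^ 2 + (s + 1) + 1) + 1 := by ring
          rw [this, Nat.add_sub_cancel]
        rw [e]
        exact h10.mul_left _
      · exact h
    set m : ℕ := q ^ 4 - q ^ 2 + 1 with hm
    have hle : q ^ 2 ≤ q ^ 4 := Nat.pow_le_pow_right (by omega) (by norm_num)
    have hmz : (m : ℤ) = 1 - (q : ℤ) ^ 2 + (q : ℤ) ^ 4 := by
      rw [hm]
      push_cast [Nat.cast_sub hle]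
      ring
    obtain ⟨T, -, hT1, -, hT3, hT4⟩ := Cfsg.Agent.H129.CycCard.card_tD4_12 hq hK hmz hp hdz
    have : Fact p.Prime := ⟨hp⟩
    obtain ⟨y, hy⟩ := exists_prime_orderOf_dvd_card' p hT3
    have hy' : orderOf (y : ↥(twistedD4 K q)) = p := by rw [Subgroup.orderOf_coe, hy]
    have hle2 : Nat.card (Subgroup.centralizer ({(y : ↥(twistedD4 K q))} : Set ↥(twistedD4 K q))) ≤ m := by
      have h1 := Subgroup.card_le_of_le (hT4 y y.2 hy')
      exact h1.trans (Nat.le_of_dvd (by omega) hT1)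
    have h1 : PW p (1 * 4) ↥(twistedD4 K q) := by
      refine PW.of_pe (perf hq hK) (IsPE.of_prime hy').pe (minDeg514 hq hK) (by norm_num) ?_
      refine Nat.pow_lt_pow_left ?_ (by norm_num)
      have := arith2 hq2
      omega
    exact h1.mono (by norm_num)

/-- **S2454 for `³D₄(q)`** -/
theorem pw_3d4 {S : Type*} [Group S] {K : Type} [Field K] [Fintype K] {q : ℕ} (hq : IsPrimePow q)
    (hK : Fintype.card K = q ^ 3) (e : Nonempty (S ≃* ↥(twistedD4 K q))) {p : ℕ} (hp : p.Prime)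
    (hd : p ∣ Nat.card S) : PW p 54 S := by
  obtain ⟨e⟩ := e
  exact (pw hq hK hp (by rwa [← Nat.card_congr e.toEquiv])).congr e.symm

/-- **S2454 for `³D₄(q)`** -/
theorem pw_iso3d4 {S : Type*} [Group S] (h : Iso3D4 S) {p : ℕ} (hp : p.Prime) (hd : p ∣ Nat.card S) : PW p 70 S := by
  obtain ⟨K, _, _, q, hq, hK, e⟩ := h
  exact (pw_3d4 hq hK e hp hd).mono (by norm_num)

end Tw

end Cfsg.Agent.H120.DP.TwD4
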